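import Cfsg.Agent.H80.Alt.ModelCent
import Cfsg.Agent.H80.Alt.Main
import Cfsg.Agent.H28.BaerSuzuki

/-! An alternating group of degree eight containing an involution centralizer. -/

set_option autoImplicit false
set_option maxRecDepth 20000

namespace Cfsg.Agent.H80.Ext

open Cfsg.Agent.H16 Cfsg.Agent.H68.J1 Cfsg.Agent.H80.Alt
open Cfsg.Agent.H68.J1.Cert (ev)

/-- classes of the fixed point free type -/
noncomputable def sType (a : Nat) : Bool :=
  Nat.beq (Alt.cls a) 1 || Nat.beq (Alt.cls a) 2 || Nat.beq (Alt.cls a) 3 || Nat.beq (Alt.cls a) 6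

/-- a word moving the representative of class `c` to the standard involution of its type -/
def repWord (c : Nat) : List Nat := [[], [], [5], [7], [0, 2, 0], [5, 0, 2, 0], [6, 5]].getD c []

theorem repWord_chk : allFrom (fun c =>
    sameWord (repWord c ++ wd (repC c) ++ Alt.invW (repWord c))
      (wd (Bool.rec Alt.tI Alt.sI (sType (repC c))))) 6 1 = true := by
  decide +kernel

theorem sType_rep_chk : allL (fun a => Bool.rec
    (Bool.rec (Nat.beq (Alt.cls a) 4 || Nat.beq (Alt.cls a) 5) true (Nat.beq (Alt.cls a) 0)) true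
    (sType a) && imp (!Nat.beq (Alt.cls a) 0)
      (Bool.rec (!sType (repC (Alt.cls a))) (sType (repC (Alt.cls a))) (sType a))) = true := by
  decide +kernel

/-- An alternating group of degree eight in a group, containing the centralizer of a fixed point
free involution and having two classes of them. -/
structure Emb (G : Type*) [Group G] where
  /-- the embedding -/
  φ : A8 →* G
  inj : Function.Injective φ
  cent : ∀ x : G, x * φ (ev modelLet (wd Alt.sI)) = φ (ev modelLet (wd Alt.sI)) * x → x ∈ φ.range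
  nconj : ¬ IsConj (φ (ev modelLet (wd Alt.sI))) (φ (ev modelLet (wd Alt.tI)))

namespace Emb

variable {G : Type*} [Group G] (E : Emb G)

/-- the image of a word -/
noncomputable def wv (w : List Nat) : G := E.φ (ev modelLet w)

/-- the image of a table element -/
noncomputable def el (a : Nat) : G := E.wv (wd a)

/-- the central involution of the table -/
noncomputable def s : G := E.el Alt.sI

/-- the involution with four fixed points -/
noncomputable def t : G := E.el Alt.tI

theorem wv_mem (w : List Nat) : E.wv w ∈ E.φ.range := ⟨_, rfl⟩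

theorem el_mem (a : Nat) : E.el a ∈ E.φ.range := E.wv_mem _

theorem wv_append (u v : List Nat) : E.wv (u ++ v) = E.wv u * E.wv v := by
  rw [wv, Cert.ev_append, map_mul]; rfl

theorem wv_invW (u : List Nat) : E.wv (Alt.invW u) = (E.wv u)⁻¹ := by
  rw [wv, Alt.invW, Cert.ev_inv_reverse modelLet modelLet_inv, map_inv]; rfl

theorem wv_eq {u v : List Nat} (h : sameWord u v = true) : E.wv u = E.wv v := by
  rw [wv, wv, sameWord_spec h]

theorem wv_one {u : List Nat} (h : sameWord u [] = true) : E.wv u = 1 :=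
  (E.wv_eq h).trans (map_one _)

/-- the involution centralizer -/
theorem exists_frame : ∃ F : Frame E.s, ∀ a, a < 192 → F.ι a = E.el a := by
  obtain ⟨F0, h0⟩ := exists_model_frame
  refine ⟨⟨fun a => E.φ (F0.ι a), fun a b ha hb => ?_, fun a b ha hb h => ?_, fun x hx => ?_, ?_⟩,
    fun a ha => congrArg E.φ (h0 a ha)⟩
  · rw [F0.map_mul a b ha hb, map_mul]
  · exact F0.inj a b ha hb (E.inj h)
  · obtain ⟨y, rfl⟩ := E.cent x hx
    obtain ⟨a, ha, hae⟩ := F0.surj y (E.inj (by rw [map_mul, map_mul]; exact hx))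
    exact ⟨a, ha, congrArg E.φ hae⟩
  · rw [F0.map_s]; rfl

/-- the frame of the centralizer -/
noncomputable def F : Frame E.s := E.exists_frame.choose

theorem ι_eq {a : Nat} (ha : a < 192) : E.F.ι a = E.el a := E.exists_frame.choose_spec a ha

theorem el_mul {a b : Nat} (ha : a < 192) (hb : b < 192) :
    E.el (Alt.mul a b) = E.el a * E.el b := by
  rw [← E.ι_eq (mul_lt ha hb), ← E.ι_eq ha, ← E.ι_eq hb, E.F.map_mul a b ha hb]

theorem el_inj {a b : Nat} (ha : a < 192) (hb : b < 192) (h : E.el a = E.el b) : a = b :=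
  E.F.inj a b ha hb (by rw [E.ι_eq ha, E.ι_eq hb, h])

theorem el_surj {x : G} (hx : x * E.s = E.s * x) : ∃ a, a < 192 ∧ E.el a = x := by
  obtain ⟨a, ha, rfl⟩ := E.F.surj x hx
  exact ⟨a, ha, (E.ι_eq ha).symm⟩

theorem el_comm {a b : Nat} (ha : a < 192) (hb : b < 192) :
    Alt.commB a b = true ↔ E.el a * E.el b = E.el b * E.el a := by
  rw [E.F.commB_iff ha hb, E.ι_eq ha, E.ι_eq hb]

theorem el_zero : E.el 0 = 1 := by rw [← E.ι_eq (by norm_num), E.F.map_zero]

theorem orderOf_s : orderOf E.s = 2 := E.F.orderOf_s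

theorem orderOf_t : orderOf E.t = 2 := by
  rw [t, ← E.ι_eq (by decide)]
  exact (E.F.orderOf_two (by decide)).mpr (by decide +kernel)

theorem not_isConj : ¬ IsConj E.s E.t := E.nconj

/-- Every involution of the table is conjugate in the alternating group to one of the two
standard ones, according to its type. -/
theorem conj_std {a : Nat} (ha : a < 192) (h0 : Alt.cls a ≠ 0) :
    ∃ k ∈ E.φ.range, k * E.el a * k⁻¹ = (Bool.rec E.t E.s (sType a) : G) := by
  obtain ⟨j, hj, hje, -⟩ := E.F.isConj_rep ha h0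
  have hle := Frame.cls_le ha
  have h := allFrom_spec repWord_chk (Alt.cls a) (by omega) (by omega)
  have hst := allL_spec sType_rep_chk ha
  simp only [Bool.and_eq_true, imp, beq_false h0, Bool.not_false, Bool.not_true, Bool.false_or] at hst
  have hr : repC (Alt.cls a) < 192 := by
    have hr := allFrom_spec rep_chk (Alt.cls a) (Nat.zero_le _) (by omega)
    simp only [Bool.and_eq_true] at hr
    exact Nat.le_of_ble_eq_true hr.1.1
  have hs : sType (repC (Alt.cls a)) = sType a := by
    cases hsa : sType a <;> simp [hsa] at hst <;> simp [hst]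
  refine ⟨E.wv (repWord (Alt.cls a)) * (E.el j)⁻¹,
    mul_mem (E.wv_mem _) (inv_mem (E.el_mem _)), ?_⟩
  have e1 : E.el a = E.el j * E.el (repC (Alt.cls a)) * (E.el j)⁻¹ := by
    rw [← E.ι_eq hj, ← E.ι_eq hr, ← E.F.map_conj hj hr, hje, E.ι_eq ha]
  have e2 : E.wv (repWord (Alt.cls a)) * E.el (repC (Alt.cls a)) * (E.wv (repWord (Alt.cls a)))⁻¹ =
      E.el (Bool.rec Alt.tI Alt.sI (sType a)) := by
    rw [el, ← E.wv_invW, ← E.wv_append, ← E.wv_append, ← hs]
    exact E.wv_eq h
  have e3 : E.el (Bool.rec Alt.tI Alt.sI (sType a)) = (Bool.rec E.t E.s (sType a) : G) := by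
    cases sType a <;> rfl
  rw [← e3, ← e2, e1]
  group

theorem isConj_s_iff {a : Nat} (ha : a < 192) (h0 : Alt.cls a ≠ 0) :
    IsConj E.s (E.el a) ↔ sType a = true := by
  obtain ⟨k, -, hk⟩ := E.conj_std ha h0
  cases hs : sType a with
  | true =>
    simp only [hs] at hk
    exact iff_of_true (isConj_iff.mpr ⟨k⁻¹, by rw [← hk]; group⟩) rfl
  | false =>
    simp only [hs] at hk
    exact iff_of_false (fun hc => E.not_isConj (hc.trans (isConj_iff.mpr ⟨k, hk⟩))) (by simp)

theorem card_centralizer_s : Nat.card (Subgroup.centralizer ({E.s} : Set G)) = 192 :=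
  E.F.card_centralizer

theorem mem_range_of_comm {x : G} (h : x * E.s = E.s * x) : x ∈ E.φ.range := E.cent x h

variable [Finite G]

/-- A two-group of order 64 in the centralizer contains the two-elements of the centralizer
normalising it. -/
theorem mem_of_normalizes {S : Subgroup G} (hS : Nat.card S = 64)
    (hle : S ≤ Subgroup.centralizer ({E.s} : Set G)) {x : G} (hx : IsPGroup 2 (Subgroup.zpowers x))
    (hxN : x ∈ Subgroup.normalizer (S : Set G)) (hxs : x * E.s = E.s * x) : x ∈ S := by
  haveI := Fact.mk Nat.prime_two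
  by_contra hxS
  have hxL : x ∈ Subgroup.centralizer ({E.s} : Set G) := by
    rw [Subgroup.mem_centralizer_singleton_iff]
    first
      | exact hxs
      | exact hxs.symm
  have hsup := (IsPGroup.of_card (p := 2) (n := 6) (G := S) (by rw [hS]; norm_num)).to_sup_of_normal_left'
    hx (by rw [Subgroup.zpowers_le]; exact hxN)
  obtain ⟨k, hk⟩ := IsPGroup.iff_card.mp hsup
  have hdvd : 2 ^ k ∣ 192 := by
    rw [← hk, ← E.card_centralizer_s]
    exact Subgroup.card_dvd_of_le (sup_le hle (by rw [Subgroup.zpowers_le]; exact hxL))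
  have hd : 64 ∣ 2 ^ k := by
    rw [← hk, ← hS]
    exact Subgroup.card_dvd_of_le le_sup_left
  have h6 : k ≤ 6 := by
    by_contra h7
    have := (pow_dvd_pow 2 (show 7 ≤ k by omega)).trans hdvd
    norm_num at this
  have hk6 : 2 ^ k = 64 :=
    le_antisymm ((Nat.pow_le_pow_right (by norm_num) h6).trans (by norm_num))
      (Nat.le_of_dvd (by positivity) hd)
  refine hxS ?_
  have heq : S = S ⊔ Subgroup.zpowers x :=
    Subgroup.eq_of_le_of_card_ge le_sup_left (by rw [hS, hk, hk6])
  rw [heq]
  exact Subgroup.mem_sup_right (Subgroup.mem_zpowers _)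

/-- A Sylow subgroup of the whole group lies in the centralizer. -/
theorem exists_sylow : ∃ P : Sylow 2 G, (P : Subgroup G) ≤ Subgroup.centralizer ({E.s} : Set G) ∧
    Nat.card (P : Subgroup G) = 64 := by
  haveI := Fact.mk Nat.prime_two
  obtain ⟨S, hS⟩ := Sylow.exists_subgroup_card_pow_prime 2
    (G := Subgroup.centralizer ({E.s} : Set G)) (n := 6)
    (by rw [E.card_centralizer_s]; norm_num)
  set S' := S.map (Subgroup.centralizer ({E.s} : Set G)).subtype with hS'
  have hc : Nat.card S' = 64 := by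
    rw [hS', Nat.card_congr (Subgroup.equivMapOfInjective _ _
      (Subgroup.centralizer ({E.s} : Set G)).subtype_injective).symm.toEquiv, hS]
    norm_num
  obtain ⟨P, hP⟩ :=
    (IsPGroup.of_card (p := 2) (n := 6) (G := S') (by rw [hc]; norm_num)).exists_le_sylow
  have hle : S' ≤ Subgroup.centralizer ({E.s} : Set G) := Subgroup.map_subtype_le _
  suffices S' = P by exact ⟨P, this ▸ hle, this ▸ hc⟩
  by_contra hne
  obtain ⟨g, hgP, hgS, hgN⟩ := H28.exists_mem_normalizer_not_mem P.2 hP hne
  have hcs : ∀ u ∈ S', u * E.s = E.s * u := fun u hu => by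
    have := Subgroup.mem_centralizer_singleton_iff.mp (hle hu)
    first
      | exact this
      | exact this.symm
  have hsS : E.s ∈ S' := by
    refine E.mem_of_normalizes hc hle
      (IsPGroup.of_card (n := 1) (by rw [Nat.card_zpowers, E.orderOf_s, pow_one])) ?_ rfl
    apply Subgroup.centralizer_le_normalizer
    rw [Subgroup.mem_centralizer_iff]
    exact hcs
  have hgs : g * E.s * g⁻¹ ∈ S' := (Subgroup.mem_normalizer_iff.mp hgN E.s).mp hsS
  obtain ⟨a, ha, hae⟩ := E.F.mem_centralizer.mp (hle hgs)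
  have hord : orderOf (E.F.ι a) = 2 := by
    rw [hae]; exact ((MulAut.conj g).orderOf_eq E.s).trans E.orderOf_s
  have h0 := (E.F.orderOf_two ha).mp hord
  have h1 : Alt.cls a ≠ 1 := fun e => by
    rw [Frame.eq_sI ha e, E.F.map_s] at hae
    exact hgS (E.mem_of_normalizes hc hle
      (P.2.to_le (by rw [Subgroup.zpowers_le]; exact hgP)) hgN (mul_inv_eq_iff_eq_mul.mp hae.symm))
  have hle' : S' ≤ Subgroup.centralizer ({E.s} : Set G) ⊓
      Subgroup.centralizer ({E.F.ι a} : Set G) := by
    refine le_inf hle fun u hu => ?_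
    rw [Subgroup.mem_centralizer_singleton_iff, hae]
    have hu' : g⁻¹ * u * g ∈ S' := by
      have h2 := (Subgroup.mem_normalizer_iff.mp (inv_mem hgN) u).mp hu
      rwa [inv_inv] at h2
    have h3 := hcs _ hu'
    have e1 : u * (g * E.s * g⁻¹) = g * E.s * g⁻¹ * u := by
      calc u * (g * E.s * g⁻¹) = g * ((g⁻¹ * u * g) * E.s) * g⁻¹ := by group
        _ = g * (E.s * (g⁻¹ * u * g)) * g⁻¹ := by rw [h3]
        _ = _ := by group
    first
      | exact e1
      | exact e1.symm
  have hdvd := Subgroup.card_dvd_of_le hle'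
  rw [E.F.card_centralizer_pair ha, hc] at hdvd
  have hs := allL_spec cent_size ha
  rw [Bool.and_eq_true] at hs
  have hle6 := Frame.cls_le ha
  rcases (show (Alt.cls a = 2 ∨ Alt.cls a = 3 ∨ Alt.cls a = 4) ∨
      (Alt.cls a = 5 ∨ Alt.cls a = 6) by omega) with h | h
  · have := Nat.eq_of_beq_eq_true (Alt.imp_spec hs.1 (by rcases h with e | e | e <;> rw [e] <;> rfl))
    rw [this] at hdvd
    norm_num at hdvd
  · have := Nat.eq_of_beq_eq_true (Alt.imp_spec hs.2 (by rcases h with e | e <;> rw [e] <;> rfl))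
    rw [this] at hdvd
    norm_num at hdvd

end Emb

end Cfsg.Agent.H80.Ext
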