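import Cfsg.Agent.H80.Ext.Local

/-! Odd normal subgroups of quotients of the centralizer of `t`. -/

set_option autoImplicit false
set_option maxRecDepth 20000

namespace Cfsg.Agent.H80.Ext

open Cfsg.Agent.H16 Cfsg.Agent.H68.J1 Cfsg.Agent.H80.Alt

theorem z_chk : (sType 50 && sType 51 && Alt.commB 50 Alt.tI && Alt.commB 51 Alt.tI &&
    Nat.beq (Alt.mul 50 51) 1 && Nat.beq (Alt.mul 1 Alt.tI) Alt.sI &&
    !Nat.beq (Alt.cls 50) 0 && !Nat.beq (Alt.cls 51) 0 && Alt.commB Alt.sI Alt.tI) = true := by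
  decide +kernel

theorem odd_two {G : Type*} [Group G] [Finite G] {m : G} (h8 : m ^ 8 = 1) (hm : Odd (orderOf m)) :
    m = 1 := by
  rw [← orderOf_eq_one_iff]
  exact Nat.Coprime.eq_one_of_dvd ((Nat.coprime_two_right.mpr hm).pow_right 3)
    (orderOf_dvd_of_pow_eq_one h8)

/-- An involution without fixed points inverts a group of odd order. -/
theorem inverts {H : Type*} [Group H] [Finite H] (N : Subgroup H) [hN : N.Normal] {z : H}
    (hz : z * z = 1) (hfix : ∀ n ∈ N, z * n * z⁻¹ = n → n = 1) :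
    ∀ n ∈ N, z * n * z⁻¹ = n⁻¹ := by
  intro n hn
  let f : N →* N :=
    { toFun := fun u => ⟨z * u * z⁻¹, hN.conj_mem u u.2 z⟩
      map_one' := Subtype.ext (by show z * 1 * z⁻¹ = 1; group)
      map_mul' := fun u w => Subtype.ext (by
        show z * (u * w : H) * z⁻¹ = z * u * z⁻¹ * (z * w * z⁻¹); group) }
  have h1 : MonoidHom.FixedPointFree f := fun u hu =>
    Subtype.ext (hfix u u.2 (congrArg Subtype.val hu))
  have h2 : Function.Involutive f := fun u => Subtype.ext (by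
    show z * (z * u * z⁻¹) * z⁻¹ = u
    rw [show z * (z * u * z⁻¹) * z⁻¹ = z * z * u * (z * z)⁻¹ by group, hz]
    group)
  exact congrArg Subtype.val (congrFun (h1.coe_eq_inv_of_involutive h2) ⟨n, hn⟩)

namespace Emb

variable {G : Type*} [Group G] (E : Emb G)

/-- the centralizer of `t` -/
noncomputable def K : Subgroup G := Subgroup.centralizer ({E.t} : Set G)

theorem mem_K {u : G} : u ∈ E.K ↔ u * E.t = E.t * u :=
  ⟨comm_of_mem, mem_centralizer_of⟩

/-- a table element centralising `t`, as an element of its centralizer -/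
noncomputable def elK (a : Nat) (ha : a < 192) (h : Alt.commB a Alt.tI = true) : E.K :=
  ⟨E.el a, E.mem_K.mpr ((E.el_comm ha (by decide)).mp h)⟩

variable [Finite G]

theorem eq_one_of_odd_comm {z : Nat} (hz : z < 192) (hs : sType z = true) (h0 : Alt.cls z ≠ 0)
    {m : G} (hm : m * E.t = E.t * m) (hmz : m * E.el z = E.el z * m) (ho : Odd (orderOf m))
    (hzt : Alt.commB z Alt.tI = true) : m = 1 := by
  obtain ⟨k, -, hk⟩ := E.conj_std hz h0
  simp only [hs] at hk
  have cj : ∀ {u w : G}, u * w = w * u →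
      k * u * k⁻¹ * (k * w * k⁻¹) = k * w * k⁻¹ * (k * u * k⁻¹) := fun {u w} h => by
    calc k * u * k⁻¹ * (k * w * k⁻¹) = k * (u * w) * k⁻¹ := by group
      _ = k * (w * u) * k⁻¹ := by rw [h]
      _ = _ := by group
  have e1 := cj hmz
  rw [hk] at e1
  have e2 := cj ((E.el_comm hz (by decide : Alt.tI < 192)).mp hzt).symm
  rw [hk] at e2
  obtain ⟨b, hb, hbe⟩ := E.el_surj e2
  obtain ⟨c, hc, hce⟩ := E.el_surj e1
  have hb0 : Alt.cls b ≠ 0 := (E.orderOf_el hb).mp (by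
    rw [hbe]; exact ((MulAut.conj k).orderOf_eq _).trans E.orderOf_t)
  have hb1 : Alt.cls b ≠ 1 := fun e => by
    rw [Frame.eq_sI hb e] at hbe
    exact E.not_isConj (isConj_iff.mpr ⟨k, hbe.symm⟩ : IsConj E.t E.s).symm
  have hcb : Alt.commB c b = true := (E.el_comm hc hb).mpr (by
    rw [hce, hbe]; exact cj hm)
  have h8 := Nat.eq_of_beq_eq_true (Alt.imp_spec (allL_spec (Alt.imp_spec (allL_spec cent_two_chk hb)
    (Nat.ble_eq_true_of_le (by omega))) hc) hcb)
  have hp : (k * m * k⁻¹) ^ 8 = 1 := by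
    rw [← hce, show (8 : ℕ) = 2 * 2 * 2 by norm_num, pow_mul, pow_mul, pow_two, pow_two, pow_two,
      ← E.el_mul hc hc, ← E.el_mul (mul_lt hc hc) (mul_lt hc hc),
      ← E.el_mul (mul_lt (mul_lt hc hc) (mul_lt hc hc)) (mul_lt (mul_lt hc hc) (mul_lt hc hc)),
      h8, E.el_zero]
  refine odd_two ?_ ho
  rw [conj_pow] at hp
  calc m ^ 8 = k⁻¹ * (k * m ^ 8 * k⁻¹) * k := by group
    _ = 1 := by rw [hp]; group

/-- A quotient of the centralizer of `t` by a two-group centralised by the elements of odd order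
has no odd normal subgroup. -/
theorem odd_normal_eq_bot {Kb : Type*} [Group Kb] [Finite Kb] (q : E.K →* Kb)
    (hq : Function.Surjective q)
    (hA : ∀ r : E.K, q r = 1 → ∃ j : ℕ, r ^ 2 ^ j = 1)
    (hAc : ∀ r : E.K, q r = 1 → ∀ m : E.K, Odd (orderOf m) → r * m = m * r)
    (ht : ∀ h : E.t ∈ E.K, q ⟨E.t, h⟩ = 1)
    (N : Subgroup Kb) [hN : N.Normal] (hodd : Odd (Nat.card N)) : N = ⊥ := by
  classical
  have lift : ∀ n ∈ N, ∃ m : E.K, Odd (orderOf m) ∧ q m = n := by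
    intro n hn
    obtain ⟨m, rfl⟩ := hq n
    have ho : Odd (orderOf (q m)) :=
      Odd.of_dvd_nat hodd (Subgroup.orderOf_mk (q m) hn ▸ orderOf_dvd_natCard _)
    obtain ⟨a, u, hu, he⟩ := Nat.exists_eq_pow_mul_and_not_dvd (orderOf_pos m).ne' 2 (by norm_num)
    have hcop : Nat.Coprime (2 ^ a) (orderOf (q m)) :=
      ((Nat.coprime_two_left.mpr ho).pow_left a)
    obtain ⟨i, hi⟩ := (exists_pow_eq_self_of_coprime hcop : ∃ i : ℕ, ((q m) ^ 2 ^ a) ^ i = q m)
    refine ⟨(m ^ 2 ^ a) ^ i, ?_, by rw [map_pow, map_pow, hi]⟩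
    refine Odd.of_dvd_nat (Nat.odd_iff.mpr (Nat.two_dvd_ne_zero.mp hu)) (orderOf_dvd_of_pow_eq_one ?_)
    rw [← pow_mul, mul_comm i u, pow_mul, ← pow_mul m, ← he, pow_orderOf_eq_one, one_pow]
  have uniq : ∀ m m' : E.K, Odd (orderOf m) → Odd (orderOf m') → q m = q m' → m = m' := by
    intro m m' h h' e
    have hr : q (m⁻¹ * m') = 1 := by rw [map_mul, map_inv, e, inv_mul_cancel]
    have hcm : Commute m (m⁻¹ * m') := (hAc _ hr m h).symm
    obtain ⟨j, hj⟩ := hA _ hr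
    have hmm : Commute m⁻¹ m' := by
      have h3 := (hcm.inv_left).mul_right (Commute.refl m⁻¹).inv_right
      have : m⁻¹ * m' * m⁻¹⁻¹ = m⁻¹ * m' * m := by rw [inv_inv]
      have h4 : Commute m⁻¹ (m * (m⁻¹ * m')) :=
        ((Commute.refl m).inv_left).mul_right hcm.inv_left
      rwa [mul_inv_cancel_left] at h4
    have ho : Odd (orderOf (m⁻¹ * m')) :=
      Odd.of_dvd_nat (h.mul h') ((orderOf_inv m ▸ hmm.orderOf_mul_dvd_mul_orderOf))
    have h1 : m⁻¹ * m' = 1 := by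
      rw [← orderOf_eq_one_iff]
      exact Nat.Coprime.eq_one_of_dvd ((Nat.coprime_two_right.mpr ho).pow_right j)
        (orderOf_dvd_of_pow_eq_one hj)
    exact inv_mul_eq_one.mp h1
  have hz' := z_chk
  simp only [Bool.and_eq_true, Bool.not_eq_true'] at hz'
  obtain ⟨⟨⟨⟨⟨⟨⟨⟨z1, z2⟩, c1⟩, c2⟩, m12⟩, m1t⟩, n1⟩, n2⟩, cs⟩ := hz'
  have key : ∀ z, ∀ hz : z < 192, sType z = true → ∀ hc : Alt.commB z Alt.tI = true,
      Alt.cls z ≠ 0 → ∀ n ∈ N, q (E.elK z hz hc) * n * (q (E.elK z hz hc))⁻¹ = n⁻¹ := by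
    intro z hz hs hc h0
    have hz2 : E.elK z hz hc * E.elK z hz hc = 1 := Subtype.ext (by
      show E.el z * E.el z = 1
      rw [← E.ι_eq hz]; exact E.F.sq_one hz h0)
    refine inverts N (by rw [← map_mul, hz2, map_one]) fun n hn hfix => ?_
    obtain ⟨m, hmo, rfl⟩ := lift n hn
    set zz := E.elK z hz hc
    have e := uniq (zz * m * zz⁻¹) m (by
      rw [show orderOf (zz * m * zz⁻¹) = orderOf m from (MulAut.conj zz).orderOf_eq m]; exact hmo) hmo
      (by rw [map_mul, map_mul, map_inv]; exact hfix)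
    have e1 : (m : G) = 1 := by
      refine E.eq_one_of_odd_comm hz hs h0 (E.mem_K.mp m.2) ?_ (by rwa [Subgroup.orderOf_coe]) hc
      have := congrArg Subtype.val (mul_inv_eq_iff_eq_mul.mp e)
      exact this.symm
    rw [show m = 1 from Subtype.ext e1, map_one]
  have ne1 : Alt.cls 50 ≠ 0 := fun e => by simp [e] at n1
  have ne2 : Alt.cls 51 ≠ 0 := fun e => by simp [e] at n2
  rw [eq_bot_iff]
  intro n hn
  have hn1 := key 51 (by norm_num) z2 c2 ne2 n hn
  have hn2 := key 50 (by norm_num) z1 c1 ne1 n⁻¹ (inv_mem hn)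
  have hn3 := key Alt.sI (by decide) (by decide +kernel) cs (by decide +kernel) n hn
  have hprod : q (E.elK Alt.sI (by decide) cs) =
      q (E.elK 50 (by norm_num) c1) * q (E.elK 51 (by norm_num) c2) := by
    have e : E.elK Alt.sI (by decide) cs = E.elK 50 (by norm_num) c1 * E.elK 51 (by norm_num) c2 *
        ⟨E.t, E.mem_K.mpr rfl⟩ := Subtype.ext (by
      show E.el Alt.sI = E.el 50 * E.el 51 * E.el Alt.tI
      rw [← E.el_mul (by norm_num) (by norm_num), Nat.eq_of_beq_eq_true m12,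
        ← E.el_mul (by norm_num) (by decide), Nat.eq_of_beq_eq_true m1t])
    rw [e, map_mul, map_mul, ht, mul_one]
  have hself : n = n⁻¹ := by
    rw [← hn3, hprod, mul_inv_rev]
    calc n = (n⁻¹)⁻¹ := (inv_inv n).symm
      _ = q (E.elK 50 (by norm_num) c1) * n⁻¹ * (q (E.elK 50 (by norm_num) c1))⁻¹ := hn2.symm
      _ = q (E.elK 50 (by norm_num) c1) * (q (E.elK 51 (by norm_num) c2) * n *
          (q (E.elK 51 (by norm_num) c2))⁻¹) * (q (E.elK 50 (by norm_num) c1))⁻¹ := by rw [hn1]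
      _ = _ := by group
  have h2 : n ^ 2 = 1 := by rw [pow_two]; nth_rw 1 [hself]; exact inv_mul_cancel n
  rw [Subgroup.mem_bot, ← orderOf_eq_one_iff]
  exact Nat.Coprime.eq_one_of_dvd (Nat.coprime_two_right.mpr
    (Odd.of_dvd_nat hodd (Subgroup.orderOf_mk n hn ▸ orderOf_dvd_natCard _)))
    (orderOf_dvd_of_pow_eq_one h2)

end Emb

end Cfsg.Agent.H80.Ext
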