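import Cfsg.Agent.H80.Ext.Basic

/-! Fusion inside the centralizer of the second involution. -/

set_option autoImplicit false
set_option maxRecDepth 20000

namespace Cfsg.Agent.H80.Ext

open Cfsg.Agent.H16 Cfsg.Agent.H68.J1 Cfsg.Agent.H80.Alt
open Cfsg.Agent.H68.J1.Cert (ev)

/-- table index of the second generator of the four group -/
def vI : Nat := 48

/-- table index of an involution moving two pairs -/
def xI : Nat := 25

theorem index_chk : vI < 192 ∧ xI < 192 ∧ Alt.tI < 192 ∧ Alt.cls vI = 5 ∧ Alt.mul vI Alt.tI = 76 ∧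
    Alt.mul xI Alt.tI = 5 ∧ Alt.cls Alt.tI = 4 := by
  refine ⟨?_, ?_, ?_, ?_, ?_, ?_, ?_⟩ <;> decide +kernel

theorem cand_chk : allL (fun a => imp (Alt.commB a Alt.tI && !Nat.beq a Alt.tI &&
      (!Nat.beq (Alt.cls a) 0 && !sType a) &&
      (!Nat.beq (Alt.cls (Alt.mul a Alt.tI)) 0 && !sType (Alt.mul a Alt.tI)))
    (Nat.beq a vI || Nat.beq a 76 || anyL (fun l => Alt.commB l Alt.tI &&
      (Nat.beq (Alt.conj l xI) a || Nat.beq (Alt.conj l xI) (Alt.mul a Alt.tI))))) = true := by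
  decide +kernel

theorem clw_chk : allL (fun a => imp (Alt.commB a Alt.tI && Alt.commB a xI && sType a)
    (Nat.beq a Alt.sI)) = true := by
  decide +kernel

theorem clw_card : countFrom (fun a => Alt.commB a Alt.tI && Alt.commB a xI) 192 0 = 8 := by
  decide +kernel

theorem clv_card : countFrom (fun a => Alt.commB a Alt.tI && Alt.commB a vI) 192 0 = 16 := by
  decide +kernel

theorem mem_centralizer_of {G : Type*} [Group G] {x y : G} (h : y * x = x * y) :
    y ∈ Subgroup.centralizer ({x} : Set G) := by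
  rw [Subgroup.mem_centralizer_singleton_iff]
  first
    | exact h
    | exact h.symm

theorem comm_of_mem {G : Type*} [Group G] {x y : G} (h : y ∈ Subgroup.centralizer ({x} : Set G)) :
    y * x = x * y := by
  rw [Subgroup.mem_centralizer_singleton_iff] at h
  first
    | exact h
    | exact h.symm

namespace Emb

variable {G : Type*} [Group G] (E : Emb G)

/-- the second generator of the four group -/
noncomputable def v : G := E.el vI

/-- the involution moving two pairs -/
noncomputable def x : G := E.el xI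

theorem s_mul_s : E.s * E.s = 1 := by
  have := pow_orderOf_eq_one E.s
  rwa [E.orderOf_s, pow_two] at this

theorem t_mul_t : E.t * E.t = 1 := by
  have := pow_orderOf_eq_one E.t
  rwa [E.orderOf_t, pow_two] at this

theorem el_comm_s {a : Nat} (ha : a < 192) : E.el a * E.s = E.s * E.el a := by
  rw [← E.ι_eq ha]; exact E.F.comm_s ha

theorem orderOf_el {a : Nat} (ha : a < 192) : orderOf (E.el a) = 2 ↔ Alt.cls a ≠ 0 := by
  rw [← E.ι_eq ha]; exact E.F.orderOf_two ha

/-- centralizer of `s` and two further table elements -/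
noncomputable def cent3 (a b : Nat) : Subgroup G :=
  Subgroup.centralizer ({E.s} : Set G) ⊓
    (Subgroup.centralizer ({E.el a} : Set G) ⊓ Subgroup.centralizer ({E.el b} : Set G))

theorem mem_cent3 {a b : Nat} (ha : a < 192) (hb : b < 192) {u : G} :
    u ∈ E.cent3 a b ↔ ∃ c, c < 192 ∧ Alt.commB c a = true ∧ Alt.commB c b = true ∧ E.el c = u := by
  simp only [cent3, Subgroup.mem_inf]
  constructor
  · rintro ⟨h1, h2, h3⟩
    obtain ⟨c, hc, rfl⟩ := E.el_surj (comm_of_mem h1)
    exact ⟨c, hc, (E.el_comm hc ha).mpr (comm_of_mem h2), (E.el_comm hc hb).mpr (comm_of_mem h3), rfl⟩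
  · rintro ⟨c, hc, h2, h3, rfl⟩
    exact ⟨mem_centralizer_of (E.el_comm_s hc), mem_centralizer_of ((E.el_comm hc ha).mp h2),
      mem_centralizer_of ((E.el_comm hc hb).mp h3)⟩

theorem card_cent3 {a b : Nat} (ha : a < 192) (hb : b < 192) :
    Nat.card (E.cent3 a b) = countFrom (fun c => Alt.commB c a && Alt.commB c b) 192 0 := by
  classical
  rw [countFrom_spec, ← Nat.card_eq_finsetCard]
  refine (Nat.card_congr (Equiv.ofBijective
    (fun c => ⟨E.el c.1, (E.mem_cent3 ha hb).mpr (by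
      obtain ⟨h1, h2⟩ := Finset.mem_filter.mp c.2
      rw [Bool.and_eq_true] at h2
      exact ⟨c.1, (Finset.mem_Ico.mp h1).2, h2.1, h2.2, rfl⟩)⟩) ⟨?_, ?_⟩)).symm
  · intro c d h
    exact Subtype.ext (E.el_inj (Finset.mem_Ico.mp (Finset.mem_filter.mp c.2).1).2
      (Finset.mem_Ico.mp (Finset.mem_filter.mp d.2).1).2 (congrArg Subtype.val h))
  · rintro ⟨u, hu⟩
    obtain ⟨c, hc, h2, h3, rfl⟩ := (E.mem_cent3 ha hb).mp hu
    exact ⟨⟨c, Finset.mem_filter.mpr ⟨Finset.mem_Ico.mpr ⟨Nat.zero_le c, hc⟩, by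
      rw [Bool.and_eq_true]; exact ⟨h2, h3⟩⟩⟩, rfl⟩

variable [Finite G]

/-- An involution of the centralizer centralised by 64 of its elements is `s`. -/
theorem eq_s_of_central {S : Subgroup G} (hS : Nat.card S = 64)
    (hle : S ≤ Subgroup.centralizer ({E.s} : Set G)) {u : G} (hu : u * E.s = E.s * u)
    (hord : orderOf u = 2) (hc : ∀ w ∈ S, w * u = u * w) : u = E.s := by
  obtain ⟨a, ha, rfl⟩ := E.el_surj hu
  by_contra hne
  have h0 := (E.orderOf_el ha).mp hord
  have h1 : Alt.cls a ≠ 1 := fun e => hne (by rw [Frame.eq_sI ha e]; rfl)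
  have hle' : S ≤ Subgroup.centralizer ({E.s} : Set G) ⊓
      Subgroup.centralizer ({E.F.ι a} : Set G) :=
    le_inf hle fun w hw => mem_centralizer_of (by rw [E.ι_eq ha]; exact hc w hw)
  have hdvd := Subgroup.card_dvd_of_le hle'
  rw [E.F.card_centralizer_pair ha, hS] at hdvd
  have hs := allL_spec cent_size ha
  rw [Bool.and_eq_true] at hs
  have hle6 := Frame.cls_le ha
  rcases (show (Alt.cls a = 2 ∨ Alt.cls a = 3 ∨ Alt.cls a = 4) ∨
      (Alt.cls a = 5 ∨ Alt.cls a = 6) by omega) with h | h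
  · have := Nat.eq_of_beq_eq_true (Alt.imp_spec hs.1 (by rcases h with e | e | e <;> rw [e] <;> rfl))
    rw [this] at hdvd
    norm_num at hdvd
  · have := Nat.eq_of_beq_eq_true (Alt.imp_spec hs.2 (by rcases h with e | e <;> rw [e] <;> rfl))
    rw [this] at hdvd
    norm_num at hdvd

include E in
/-- Every two-group has order at most 64. -/
theorem card_le_of_two_group {P : Subgroup G} (hP : IsPGroup 2 P) : Nat.card P ≤ 64 := by
  haveI := Fact.mk Nat.prime_two
  obtain ⟨S, -, hS⟩ := E.exists_sylow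
  obtain ⟨R, hR⟩ := hP.exists_le_sylow
  refine (Subgroup.card_le_of_le hR).trans ?_
  rw [R.card_eq_multiplicity, ← S.card_eq_multiplicity, hS]

/-- The Sylow two-subgroups of the centralizer of `t` have order at most 32. -/
theorem card_le_32 {P : Subgroup G} (hP : IsPGroup 2 P) (hc : ∀ w ∈ P, w * E.t = E.t * w) :
    Nat.card P ≤ 32 := by
  haveI := Fact.mk Nat.prime_two
  obtain ⟨k, hk⟩ := IsPGroup.iff_card.mp hP
  have h64 := E.card_le_of_two_group hP
  by_contra hlt
  have h6 : Nat.card P = 64 := by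
    rw [hk] at h64 hlt ⊢
    have : k = 6 := by
      rcases lt_trichotomy k 6 with h | h | h
      · have := Nat.pow_le_pow_right (show 2 > 0 by norm_num) (show k ≤ 5 by omega)
        omega
      · exact h
      · have := Nat.pow_le_pow_right (show 2 > 0 by norm_num) (show 7 ≤ k by omega)
        omega
    rw [this]; norm_num
  have htP : E.t ∈ P := by
    by_contra htP
    have hn : Subgroup.zpowers E.t ≤ Subgroup.normalizer (P : Set G) := by
      rw [Subgroup.zpowers_le]
      apply Subgroup.centralizer_le_normalizer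
      rw [Subgroup.mem_centralizer_iff]
      exact hc
    have hsup := hP.to_sup_of_normal_left' (IsPGroup.of_card (n := 1)
      (by rw [Nat.card_zpowers, E.orderOf_t, pow_one])) hn
    have h := E.card_le_of_two_group hsup
    have heq : P = P ⊔ Subgroup.zpowers E.t :=
      Subgroup.eq_of_le_of_card_ge le_sup_left (by rw [h6]; exact h)
    exact htP (heq ▸ Subgroup.mem_sup_right (Subgroup.mem_zpowers _))
  obtain ⟨S, hSle, hS⟩ := E.exists_sylow
  obtain ⟨R, hR⟩ := hP.exists_le_sylow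
  have hPR : P = (R : Subgroup G) :=
    Subgroup.eq_of_le_of_card_ge hR (by rw [h6, R.card_eq_multiplicity, ← S.card_eq_multiplicity, hS])
  obtain ⟨g, hg⟩ := MulAction.exists_smul_eq G R S
  have hmem : ∀ w, w ∈ (S : Subgroup G) ↔ g⁻¹ * w * g ∈ P := by
    intro w
    rw [← hg, Sylow.coe_subgroup_smul, hPR]
    constructor
    · rintro ⟨z, hz, rfl⟩
      show g⁻¹ * (g * z * g⁻¹) * g ∈ _
      rwa [show g⁻¹ * (g * z * g⁻¹) * g = z by group]
    · intro h
      exact ⟨_, h, show g * (g⁻¹ * w * g) * g⁻¹ = w by group⟩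
  have hgt : g * E.t * g⁻¹ ∈ (S : Subgroup G) := (hmem _).mpr (by
    rwa [show g⁻¹ * (g * E.t * g⁻¹) * g = E.t by group])
  have := E.eq_s_of_central hS hSle (u := g * E.t * g⁻¹)
    (comm_of_mem (hSle hgt)) (((MulAut.conj g).orderOf_eq E.t).trans E.orderOf_t) (fun w hw => by
      have h1 := hc _ ((hmem w).mp hw)
      calc w * (g * E.t * g⁻¹) = g * ((g⁻¹ * w * g) * E.t) * g⁻¹ := by group
        _ = g * (E.t * (g⁻¹ * w * g)) * g⁻¹ := by rw [h1]
        _ = _ := by group)
  exact E.not_isConj (isConj_iff.mpr ⟨g⁻¹, by rw [← this]; group⟩)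

theorem el_vt : E.el 76 = E.v * E.t := by
  obtain ⟨hv, -, ht, -, hm, -, -⟩ := index_chk
  rw [← hm, E.el_mul hv ht]; rfl

theorem el_xt : E.el 5 = E.x * E.t := by
  obtain ⟨-, hx, ht, -, -, hm, -⟩ := index_chk
  rw [← hm, E.el_mul hx ht]; rfl

/-- A two-group centralising `t` and `x` and containing their centralizer in that of `s` has
order eight. -/
theorem card_le_eight {P : Subgroup G} (hP : IsPGroup 2 P) (hle : E.cent3 Alt.tI xI ≤ P)
    (hc : ∀ w ∈ P, w * E.t = E.t * w ∧ w * E.x = E.x * w) : Nat.card P ≤ 8 := by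
  haveI := Fact.mk Nat.prime_two
  have h8 : Nat.card (E.cent3 Alt.tI xI) = 8 := by
    rw [E.card_cent3 index_chk.2.2.1 index_chk.2.1, clw_card]
  suffices E.cent3 Alt.tI xI = P by rw [← this, h8]
  by_contra hne
  obtain ⟨g, hgP, hgC, hgN⟩ := H28.exists_mem_normalizer_not_mem hP hle hne
  have hs : E.s ∈ E.cent3 Alt.tI xI :=
    ⟨mem_centralizer_of rfl, mem_centralizer_of (E.el_comm_s index_chk.2.2.1).symm,
      mem_centralizer_of (E.el_comm_s index_chk.2.1).symm⟩
  obtain ⟨a, ha, h1, h2, hae⟩ := (E.mem_cent3 index_chk.2.2.1 index_chk.2.1).mp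
    ((Subgroup.mem_normalizer_iff.mp hgN E.s).mp hs)
  have hord : orderOf (E.el a) = 2 := by
    rw [hae]; exact ((MulAut.conj g).orderOf_eq E.s).trans E.orderOf_s
  have hst : sType a = true :=
    (E.isConj_s_iff ha ((E.orderOf_el ha).mp hord)).mp (isConj_iff.mpr ⟨g, hae.symm⟩)
  have haS := Nat.eq_of_beq_eq_true (Alt.imp_spec (allL_spec clw_chk ha) (by rw [h1, h2, hst]; rfl))
  rw [haS] at hae
  refine hgC ⟨mem_centralizer_of (mul_inv_eq_iff_eq_mul.mp hae.symm),
    mem_centralizer_of (hc g hgP).1, mem_centralizer_of (hc g hgP).2⟩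

theorem cls_false {a : Nat} (ha : a < 192) (hord : orderOf (E.el a) = 2)
    (hc : IsConj E.t (E.el a)) : (!Nat.beq (Alt.cls a) 0 && !sType a) = true := by
  have h0 := (E.orderOf_el ha).mp hord
  rw [Bool.and_eq_true, Bool.not_eq_true', Bool.not_eq_true']
  refine ⟨Alt.beq_false h0, ?_⟩
  cases hs : sType a with
  | false => rfl
  | true => exact absurd (((E.isConj_s_iff ha h0).mpr hs).trans hc.symm) E.not_isConj

theorem v_facts : E.v * E.v = 1 ∧ E.v * E.t = E.t * E.v ∧ IsConj E.t E.v ∧ IsConj E.t (E.el 76) := by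
  have hv : vI < 192 := by decide
  have ht : Alt.tI < 192 := by decide
  have conjt : ∀ a, a < 192 → Alt.cls a ≠ 0 → sType a = false → IsConj E.t (E.el a) := by
    intro a ha h0 hs
    obtain ⟨k, -, hk⟩ := E.conj_std ha h0
    simp only [hs] at hk
    exact isConj_iff.mpr ⟨k⁻¹, by rw [← hk]; group⟩
  refine ⟨?_, (E.el_comm hv ht).mp (by decide +kernel),
    conjt vI hv (by decide +kernel) (by decide +kernel),
    conjt 76 (by norm_num) (by decide +kernel) (by decide +kernel)⟩
  rw [v, ← E.ι_eq hv]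
  exact E.F.sq_one hv (by decide +kernel)

/-- The four group is weakly closed modulo `t` in the centralizer of `t`. -/
theorem weakly_closed {k : G} (hk : k * E.t = E.t * k) (hs : k * E.v * k⁻¹ * E.s = E.s * (k * E.v * k⁻¹)) :
    k * E.v * k⁻¹ = E.v ∨ k * E.v * k⁻¹ = E.v * E.t := by
  haveI := Fact.mk Nat.prime_two
  obtain ⟨hv, hx, ht, hcv, -, -, hct⟩ := index_chk
  obtain ⟨a, ha, hae⟩ := E.el_surj hs
  obtain ⟨-, hvt, hcvt, hc76⟩ := E.v_facts
  have hkt : k * E.t * k⁻¹ = E.t := by rw [hk, mul_inv_cancel_right]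
  have hordv : orderOf E.v = 2 := (E.orderOf_el hv).mpr (by rw [hcv]; norm_num)
  have hord : orderOf (E.el a) = 2 := by
    rw [hae]; exact ((MulAut.conj k).orderOf_eq E.v).trans hordv
  have hat : E.el (Alt.mul a Alt.tI) = k * E.el 76 * k⁻¹ := by
    rw [E.el_mul ha ht, hae, E.el_vt]
    calc k * E.v * k⁻¹ * E.t = k * E.v * k⁻¹ * (k * E.t * k⁻¹) := by rw [hkt]
      _ = _ := by group
  have hord76 : orderOf (E.el (Alt.mul a Alt.tI)) = 2 := by
    rw [hat]
    exact ((MulAut.conj k).orderOf_eq _).trans ((E.orderOf_el (by norm_num)).mpr (by decide +kernel))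
  have hct' : IsConj E.t (E.el a) := hcvt.trans (isConj_iff.mpr ⟨k, hae.symm⟩)
  have hne : a ≠ Alt.tI := by
    intro e
    rw [e] at hae
    have : E.v = E.t := mul_left_cancel (mul_right_cancel (hae.symm.trans hkt.symm))
    exact absurd (E.el_inj hv ht this) (by decide)
  have hcomm : Alt.commB a Alt.tI = true := (E.el_comm ha ht).mpr (by
    rw [hae]
    calc k * E.v * k⁻¹ * E.t = k * E.v * k⁻¹ * (k * E.t * k⁻¹) := by rw [hkt]
      _ = k * (E.v * E.t) * k⁻¹ := by group
      _ = k * (E.t * E.v) * k⁻¹ := by rw [hvt]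
      _ = k * E.t * k⁻¹ * (k * E.v * k⁻¹) := by group
      _ = _ := by rw [hkt]; rfl)
  have h := Alt.imp_spec (allL_spec cand_chk ha) (by
    rw [hcomm, E.cls_false ha hord hct',
      E.cls_false (mul_lt ha ht) hord76 (hc76.trans (isConj_iff.mpr ⟨k, hat.symm⟩)),
      Alt.beq_false hne]
    rfl)
  simp only [Bool.or_eq_true] at h
  rcases h with (h | h) | h
  · left
    rw [← hae, Nat.eq_of_beq_eq_true h]; rfl
  · right
    rw [← hae, Nat.eq_of_beq_eq_true h, E.el_vt]
  exfalso
  obtain ⟨l, hl, hl'⟩ := Alt.anyL_spec h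
  rw [Bool.and_eq_true, Bool.or_eq_true] at hl'
  obtain ⟨hlt, hlx⟩ := hl'
  have hlt' := (E.el_comm hl ht).mp hlt
  set k' := (E.el l)⁻¹ * k with hk'
  have hk't : k' * E.t * k'⁻¹ = E.t := by
    calc _ = (E.el l)⁻¹ * (k * E.t * k⁻¹) * E.el l := by rw [hk']; group
      _ = (E.el l)⁻¹ * (E.t * E.el l) := by rw [hkt, mul_assoc]
      _ = (E.el l)⁻¹ * (E.el l * E.t) := by rw [show E.t = E.el Alt.tI from rfl, hlt']
      _ = E.t := by group
  have hconjx : ∀ c, c < 192 → Alt.conj l xI = c → (E.el l)⁻¹ * E.el c * E.el l = E.x := by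
    intro c hc e
    rw [← e, ← E.ι_eq (conj_lt hl hx), E.F.map_conj hl hx, E.ι_eq hl, E.ι_eq hx]
    show _ = E.el xI
    group
  have hk'v : k' * E.v * k'⁻¹ = E.x ∨ k' * E.v * k'⁻¹ = E.x * E.t := by
    have e0 : k' * E.v * k'⁻¹ = (E.el l)⁻¹ * E.el a * E.el l := by rw [hk', hae]; group
    rcases hlx with e | e
    · left; rw [e0, hconjx a ha (Nat.eq_of_beq_eq_true e)]
    · right
      rw [e0]
      have e2 := hconjx _ (mul_lt ha ht) (Nat.eq_of_beq_eq_true e)
      rw [E.el_mul ha ht] at e2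
      have htt : E.el Alt.tI * E.el Alt.tI = 1 := E.t_mul_t
      calc (E.el l)⁻¹ * E.el a * E.el l
          = (E.el l)⁻¹ * (E.el a * E.el Alt.tI) * (E.el Alt.tI * E.el l) := by
            simp only [mul_assoc]
            rw [← mul_assoc (E.el Alt.tI) (E.el Alt.tI), htt, one_mul]
        _ = (E.el l)⁻¹ * (E.el a * E.el Alt.tI) * (E.el l * E.el Alt.tI) := by rw [hlt']
        _ = _ := by rw [← mul_assoc _ (E.el l), e2]; rfl
  -- the two centralizers
  set M := Subgroup.centralizer ({E.t} : Set G) ⊓ Subgroup.centralizer ({E.x} : Set G)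
  set P' := (E.cent3 Alt.tI vI).map (MulAut.conj k').toMonoidHom
  have hP'M : P' ≤ M := by
    rintro _ ⟨w, ⟨-, h1, h2⟩, rfl⟩
    have w1 : w * E.t = E.t * w := comm_of_mem h1
    have w2 : w * E.v = E.v * w := comm_of_mem h2
    have cj : ∀ {u r : G}, w * u = u * w → k' * u * k'⁻¹ = r →
        k' * w * k'⁻¹ * r = r * (k' * w * k'⁻¹) := fun {u r} hwu hr => by
      rw [← hr]
      calc k' * w * k'⁻¹ * (k' * u * k'⁻¹) = k' * (w * u) * k'⁻¹ := by group
        _ = k' * (u * w) * k'⁻¹ := by rw [hwu]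
        _ = _ := by group
    have ct := cj w1 hk't
    refine ⟨mem_centralizer_of ct, mem_centralizer_of ?_⟩
    show k' * w * k'⁻¹ * E.x = E.x * (k' * w * k'⁻¹)
    rcases hk'v with e | e
    · exact cj w2 e
    · have := cj w2 e
      have h3 : Commute (k' * w * k'⁻¹) (E.x * E.t * E.t) := Commute.mul_right this ct
      rwa [mul_assoc E.x, E.t_mul_t, mul_one] at h3
  have hW : E.cent3 Alt.tI xI ≤ M := fun w hw => ⟨hw.2.1, hw.2.2⟩
  have c16 : Nat.card P' = 16 := by
    rw [← Nat.card_congr (Subgroup.equivMapOfInjective _ _ (MulAut.conj k').injective).toEquiv,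
      E.card_cent3 ht hv, clv_card]
  have c8 : Nat.card (E.cent3 Alt.tI xI) = 8 := by rw [E.card_cent3 ht hx, clw_card]
  obtain ⟨R, hR⟩ := (IsPGroup.of_card (p := 2) (n := 4) (G := P'.subgroupOf M)
    (by rw [Nat.card_congr (Subgroup.subgroupOfEquivOfLe hP'M).toEquiv, c16]; norm_num)).exists_le_sylow
  obtain ⟨R', hR'⟩ := (IsPGroup.of_card (p := 2) (n := 3) (G := (E.cent3 Alt.tI xI).subgroupOf M)
    (by rw [Nat.card_congr (Subgroup.subgroupOfEquivOfLe hW).toEquiv, c8]; norm_num)).exists_le_sylow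
  have hb := E.card_le_eight (P := (R' : Subgroup M).map M.subtype)
    (R'.2.map _) (fun w hw => ⟨⟨w, hW hw⟩, hR' (show (⟨w, hW hw⟩ : M) ∈ _ from hw), rfl⟩)
    (by rintro _ ⟨w, -, rfl⟩; exact ⟨comm_of_mem w.2.1, comm_of_mem w.2.2⟩)
  rw [← Nat.card_congr (Subgroup.equivMapOfInjective _ _ M.subtype_injective).toEquiv] at hb
  have h16 : 16 ≤ Nat.card (R : Subgroup M) := by
    rw [← c16, ← Nat.card_congr (Subgroup.subgroupOfEquivOfLe hP'M).toEquiv]
    exact Subgroup.card_le_of_le hR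
  rw [R.card_eq_multiplicity, ← R'.card_eq_multiplicity] at h16
  omega

end Emb

end Cfsg.Agent.H80.Ext
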