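import Mathlib

/-! Facts on the symmetric group of five letters. -/

set_option autoImplicit false
set_option maxRecDepth 20000

namespace Cfsg.Agent.H80.Ext

open Equiv

/-- the symmetric group of five letters -/
abbrev S5 := Equiv.Perm (Fin 5)

theorem odd_involution : ∀ σ : S5, σ * σ = 1 → Equiv.Perm.sign σ = -1 →
    ∃ i j : Fin 5, i ≠ j ∧ σ = swap i j := by
  decide +kernel

set_option synthInstance.maxSize 2000 in
theorem chain_fin : ∀ i j k l m n : Fin 5, i < j → k < l → m < n →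
    ¬ (i = k ∧ j = l) → ¬ (k = m ∧ l = n) → ¬ (i = m ∧ j = n) →
    (i = k ∨ i = l ∨ j = k ∨ j = l) → (k = m ∨ k = n ∨ l = m ∨ l = n) →
    ¬ (i = m ∨ i = n ∨ j = m ∨ j = n) →
    ∃ p q r u : Fin 5, (p ≠ q ∧ p ≠ r ∧ p ≠ u ∧ q ≠ r ∧ q ≠ u ∧ r ≠ u) ∧
      ((i = p ∧ j = q) ∨ (i = q ∧ j = p)) ∧ ((k = q ∧ l = r) ∨ (k = r ∧ l = q)) ∧
      ((m = r ∧ n = u) ∨ (m = u ∧ n = r)) := by
  decide +kernel

theorem exists_four : ∀ p q r u : Fin 5, p ≠ q → p ≠ r → p ≠ u → q ≠ r → q ≠ u → r ≠ u →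
    ∃ σ : S5, σ 0 = p ∧ σ 1 = q ∧ σ 2 = r ∧ σ 3 = u := by
  decide +kernel

theorem swap_meet : ∀ i j k l : Fin 5, i < j → k < l → ¬ (i = k ∧ j = l) →
    ((swap i j * swap k l) * (swap i j * swap k l) * (swap i j * swap k l) = 1 ↔
      (i = k ∨ i = l ∨ j = k ∨ j = l)) := by
  decide +kernel

theorem swap_lt : ∀ i j : Fin 5, i ≠ j → ∃ a b : Fin 5, a < b ∧ swap i j = swap a b := by
  decide +kernel

/-- Three odd involutions with the braid relations are the first three transpositions in suitable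
coordinates. -/
theorem exists_coords {a b c : S5} (a2 : a * a = 1) (b2 : b * b = 1) (c2 : c * c = 1)
    (sa : Equiv.Perm.sign a = -1) (sb : Equiv.Perm.sign b = -1) (sc : Equiv.Perm.sign c = -1)
    (hab : a * b * (a * b) * (a * b) = 1) (hne : a ≠ b)
    (hbc : b * c * (b * c) * (b * c) = 1) (hne' : b ≠ c)
    (hac : a * c * (a * c) = 1) (hne'' : a ≠ c) :
    ∃ σ : S5, σ * swap 0 1 * σ⁻¹ = a ∧ σ * swap 1 2 * σ⁻¹ = b ∧ σ * swap 2 3 * σ⁻¹ = c := by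
  obtain ⟨i0, j0, h0, rfl⟩ := odd_involution a a2 sa
  obtain ⟨i, j, hij, ha⟩ := swap_lt i0 j0 h0
  obtain ⟨k0, l0, h1, rfl⟩ := odd_involution b b2 sb
  obtain ⟨k, l, hkl, hb⟩ := swap_lt k0 l0 h1
  obtain ⟨m0, n0, h2, rfl⟩ := odd_involution c c2 sc
  obtain ⟨m, n, hmn, hc⟩ := swap_lt m0 n0 h2
  rw [ha, hb] at hab hne
  rw [hb, hc] at hbc hne'
  rw [ha, hc] at hac hne''
  rw [ha, hb, hc]
  have n1 : ¬ (i = k ∧ j = l) := fun ⟨e, e'⟩ => hne (by rw [e, e'])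
  have n2 : ¬ (k = m ∧ l = n) := fun ⟨e, e'⟩ => hne' (by rw [e, e'])
  have n3 : ¬ (i = m ∧ j = n) := fun ⟨e, e'⟩ => hne'' (by rw [e, e'])
  have n4 : ¬ (i = m ∨ i = n ∨ j = m ∨ j = n) := by
    intro h
    have h3 := (swap_meet i j m n hij hmn n3).mpr h
    rw [hac, one_mul] at h3
    exact hne'' (by
      calc swap i j = swap i j * (swap m n * swap m n) := by rw [swap_mul_self, mul_one]
        _ = swap m n := by rw [← mul_assoc, h3, one_mul])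
  obtain ⟨p, q, r, u, ⟨d1, d2, d3, d4, d5, d6⟩, e1, e2, e3⟩ := chain_fin i j k l m n hij hkl hmn
    n1 n2 n3 ((swap_meet i j k l hij hkl n1).mp hab) ((swap_meet k l m n hkl hmn n2).mp hbc) n4
  obtain ⟨σ, s0, s1, s2, s3⟩ := exists_four p q r u d1 d2 d3 d4 d5 d6
  have conj : ∀ x y : Fin 5, σ * swap x y * σ⁻¹ = swap (σ x) (σ y) := fun x y => by
    rw [Equiv.swap_apply_apply]
  refine ⟨σ, ?_, ?_, ?_⟩
  · rw [conj, s0, s1]
    rcases e1 with ⟨rfl, rfl⟩ | ⟨rfl, rfl⟩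
    · rfl
    · exact swap_comm _ _
  · rw [conj, s1, s2]
    rcases e2 with ⟨rfl, rfl⟩ | ⟨rfl, rfl⟩
    · rfl
    · exact swap_comm _ _
  · rw [conj, s2, s3]
    rcases e3 with ⟨rfl, rfl⟩ | ⟨rfl, rfl⟩
    · rfl
    · exact swap_comm _ _

/-- the cycle of the last three letters -/
def gam : S5 := swap 2 3 * swap 3 4

/-- the cycle of the outer three letters -/
def gam' : S5 := swap 0 1 * swap 1 4

/-- the product of the first and the third transposition -/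
def jj : S5 := swap 0 1 * swap 2 3

theorem inverted_cases : ∀ σ : S5, σ * σ * σ = 1 → σ ≠ 1 → jj * σ * jj = σ⁻¹ →
    σ = gam ∨ σ = gam⁻¹ ∨ σ = gam' ∨ σ = gam'⁻¹ := by
  decide +kernel

theorem gam_facts : gam * gam * gam = 1 ∧ gam' * gam' * gam' = 1 ∧
    jj * gam' * jj = gam'⁻¹ ∧ gam ≠ 1 ∧ gam' ≠ 1 ∧ gam ≠ gam⁻¹ ∧ gam ≠ gam' ∧ gam ≠ gam'⁻¹ ∧
    swap 2 3 * gam * swap 2 3 = gam⁻¹ ∧ swap 0 1 * gam * swap 0 1 = gam ∧
    jj * gam * jj = gam⁻¹ ∧ swap 2 3 * gam = swap 3 4 ∧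
    swap (1 : Fin 5) 2 * swap 3 4 * (swap 1 2 * swap 3 4) = 1 := by
  decide +kernel

end Cfsg.Agent.H80.Ext
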